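import Mathlib
import Cfsg.Agent.H27.DegreeTools
import Cfsg.Agent.H43.LinearTwist
import Cfsg.Agent.H43.InvariantAbove

/-!
# Tools for character degrees without divisibility
-/

set_option autoImplicit false

open scoped commutatorElement ComplexConjugate

namespace Cfsg.Agent.H69.NonDiv

variable {H : Type*} [Group H] [Finite H]

/-- Non-linear irreducible characters. -/
def NL (χ : Cfsg.IrrCharacter H) : Prop := Cfsg.charDegree χ.1 ≠ 1

/-- The elements an automorphism moves only inside the derived subgroup. -/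
def fixMod (σ : MulAut H) : Subgroup H :=
  MonoidHom.eqLocus ((Abelianization.of (G := H)).comp σ.toMonoidHom) Abelianization.of

theorem mem_fixMod {σ : MulAut H} {y : H} :
    y ∈ fixMod σ ↔ Abelianization.of (σ y) = Abelianization.of y := Iff.rfl

theorem of_eq_one_of_mem {c : H} (hc : c ∈ commutator H) : Abelianization.of c = 1 :=
  (QuotientGroup.eq_one_iff c).2 hc

theorem mem_of_of_eq_one {c : H} (hc : Abelianization.of c = 1) : c ∈ commutator H :=
  (QuotientGroup.eq_one_iff c).1 hc

theorem commutator_le_fixMod (σ : MulAut H) : commutator H ≤ fixMod σ := by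
  intro c hc
  have h1 : σ c ∈ commutator H := by
    have : (commutator H).map σ.toMonoidHom ≤ commutator H := by
      rw [commutator, Subgroup.map_commutator]
      exact Subgroup.commutator_mono le_top le_top
    exact this (Subgroup.mem_map_of_mem _ hc)
  rw [mem_fixMod, of_eq_one_of_mem hc, of_eq_one_of_mem h1]

/-- A non-linear character fixed by `σ` vanishes off `fixMod σ`. -/
theorem vanish (σ : MulAut H)
    (hσ : ∀ χ : Cfsg.IrrCharacter H, NL χ → ∀ h, χ.1 (σ h) = χ.1 h)
    (χ : Cfsg.IrrCharacter H) (hχ : NL χ) {y : H} (hy : y ∉ fixMod σ) : χ.1 y = 0 := by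
  haveI := Fintype.ofFinite H
  have hne : Abelianization.of (σ y) * (Abelianization.of y)⁻¹ ≠ 1 := fun h =>
    hy (mem_fixMod.2 (mul_inv_eq_one.1 h))
  obtain ⟨β, hβ⟩ := CommGroup.exists_apply_ne_one_of_hasEnoughRootsOfUnity (Abelianization H) ℂ hne
  let f : H →* ℂˣ := β.comp Abelianization.of
  have hd : NL (H43.irrTwist χ f) := by
    unfold NL at *
    rwa [H43.charDegree_irrTwist]
  have h1 := hσ _ hd y
  rw [H43.irrTwist_apply, H43.irrTwist_apply, hσ χ hχ] at h1
  by_contra h0
  apply hβ
  have h2 : f (σ y) = f y := Units.ext (mul_left_cancel₀ h0 h1)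
  rw [map_mul, map_inv]
  exact mul_inv_eq_one.2 h2

/-- If the non-linear characters vanish at `y` and `y * c`, these are conjugate. -/
theorem isConj_of_vanish {y c : H} (hc : c ∈ commutator H)
    (hv : ∀ χ : Cfsg.IrrCharacter H, NL χ → χ.1 y = 0 ∧ χ.1 (y * c) = 0) :
    IsConj y (y * c) := by
  haveI := Fintype.ofFinite H
  refine (H26.isConj_iff_forall_irr _ _).2 fun χ => ?_
  by_cases hχ : NL χ
  · rw [(hv χ hχ).1, (hv χ hχ).2]
  · obtain ⟨f, hf⟩ := H27.Deg.exists_hom (not_not.1 hχ)
    rw [← hf, ← hf, map_mul, MonoidHom.mem_ker.1 (Abelianization.commutator_subset_ker f hc),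
      mul_one]

/-- Off `fixMod σ` the classes are cosets of the derived subgroup. -/
theorem isConj_mul (σ : MulAut H)
    (hσ : ∀ χ : Cfsg.IrrCharacter H, NL χ → ∀ h, χ.1 (σ h) = χ.1 h)
    {y c : H} (hy : y ∉ fixMod σ) (hc : c ∈ commutator H) : IsConj y (y * c) :=
  isConj_of_vanish hc fun χ hχ => ⟨vanish σ hσ χ hχ hy, vanish σ hσ χ hχ fun h =>
    hy (by simpa using (fixMod σ).mul_mem h ((fixMod σ).inv_mem (commutator_le_fixMod σ hc)))⟩

/-- A degree is a multiple of the index of the inertia group times the degree below. -/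
theorem exists_over (M : Subgroup H) [M.Normal] [Fintype M] [Fintype H]
    (θ : Cfsg.IrrCharacter M) :
    ∃ χ : Cfsg.IrrCharacter H, H43.restrMult M χ θ ≠ 0 ∧
      (H44.inertia M θ.1).index * Cfsg.charDegree θ.1 ∣ Cfsg.charDegree χ.1 := by
  obtain ⟨χ, hχ⟩ := H44.exists_irr_over M θ
  refine ⟨χ, ?_, H44.degree_mul_index_inertia_dvd M χ θ hχ⟩
  intro h0
  apply hχ
  rw [H43.classInner_eq_mult (H43.isCharacter_restr M χ) θ]
  exact_mod_cast h0

end Cfsg.Agent.H69.NonDiv
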