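import Cfsg.Agent.H69.NonDiv.Split
import Cfsg.Agent.H56.CliffordInertia

/-!
# Linear characters of the derived subgroup
-/

set_option autoImplicit false
set_option linter.style.haveILetI false
set_option linter.unusedSectionVars false

open scoped commutatorElement

namespace Cfsg.Agent.H69.NonDiv

variable {H : Type*} [Group H] [Finite H]

/-- The restriction of an automorphism to the derived subgroup. -/
def res (α : MulAut H) : commutator H →* commutator H where
  toFun m := ⟨α m, by
    have : (commutator H).map α.toMonoidHom ≤ commutator H := by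
      rw [commutator, Subgroup.map_commutator]
      exact Subgroup.commutator_mono le_top le_top
    exact this (Subgroup.mem_map_of_mem _ m.2)⟩
  map_one' := Subtype.ext (map_one α)
  map_mul' a b := Subtype.ext (map_mul α (a : H) b)

/-- Linear characters of the derived subgroup. -/
abbrev Lin (H : Type*) [Group H] := commutator H →* ℂˣ

/-- The pullback along an automorphism. -/
def pre (α : MulAut H) (l : Lin H) : Lin H := l.comp (res α)

theorem pre_apply (α : MulAut H) (l : Lin H) (m : commutator H) : pre α l m = l (res α m) := rfl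

theorem pre_mul (α β : MulAut H) (l : Lin H) : pre (α * β) l = pre β (pre α l) := rfl

theorem pre_one (l : Lin H) : pre 1 l = l := rfl

theorem pre_hom_mul (α : MulAut H) (l l' : Lin H) : pre α (l * l') = pre α l * pre α l' := rfl

theorem pre_hom_inv (α : MulAut H) (l : Lin H) : pre α l⁻¹ = (pre α l)⁻¹ := rfl

theorem pre_hom_one (α : MulAut H) : pre α (1 : Lin H) = 1 := rfl

theorem pre_injective (α : MulAut H) : Function.Injective (pre α) := fun l l' h => by
  have h1 := congrArg (pre α⁻¹) h
  rwa [← pre_mul, ← pre_mul, mul_inv_cancel, pre_one, pre_one] at h1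

/-- Conjugation on linear characters. -/
def cj (h : H) (l : Lin H) : Lin H := pre (MulAut.conj h) l

theorem cj_mul (h k : H) (l : Lin H) : cj (h * k) l = cj k (cj h l) := by
  unfold cj; rw [map_mul, pre_mul]

theorem cj_one (l : Lin H) : cj 1 l = l := by unfold cj; rw [map_one, pre_one]

theorem cj_injective (h : H) : Function.Injective (cj h) := pre_injective _

theorem cj_commutator {c : H} (hc : c ∈ commutator H) (l : Lin H) : cj c l = l := by
  refine MonoidHom.ext fun m => ?_
  show l (res (MulAut.conj c) m) = l m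
  have e : res (MulAut.conj c) m = ⟨c, hc⟩ * m * (⟨c, hc⟩ : commutator H)⁻¹ :=
    Subtype.ext rfl
  rw [e, map_mul, map_mul, map_inv, mul_comm (l ⟨c, hc⟩), mul_inv_cancel_right]

theorem cj_comm (h k : H) (l : Lin H) : cj h (cj k l) = cj k (cj h l) := by
  rw [← cj_mul, ← cj_mul]
  have e : k * h = ⁅k, h⁆ * (h * k) := by rw [commutatorElement_def]; group
  rw [e, cj_mul ⁅k, h⁆, cj_commutator
    (Subgroup.commutator_mem_commutator (Subgroup.mem_top _) (Subgroup.mem_top _))]

/-- The stabiliser of a linear character. -/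
def stab (l : Lin H) : Subgroup H where
  carrier := {h | cj h l = l}
  one_mem' := cj_one l
  mul_mem' := fun {a b} ha hb => by
    simp only [Set.mem_setOf_eq] at ha hb ⊢
    rw [cj_mul, ha, hb]
  inv_mem' := fun {a} ha => by
    simp only [Set.mem_setOf_eq] at ha ⊢
    apply cj_injective a
    rw [← cj_mul, inv_mul_cancel, cj_one, ha]

theorem mem_stab {l : Lin H} {h : H} : h ∈ stab l ↔ cj h l = l := Iff.rfl

theorem commutator_le_stab (l : Lin H) : commutator H ≤ stab l := fun _ hc => cj_commutator hc l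

/-- The character given by a linear character. -/
noncomputable def chr (l : Lin H) : Cfsg.IrrCharacter (commutator H) :=
  ⟨fun m => (l m : ℂ), H26.isIrrCharacter_hom l⟩

theorem twist_chr (l : Lin H) (h : H) :
    H56.twist (commutator H) (chr l).1 h = (chr (cj h l)).1 := rfl

theorem chr_injective : Function.Injective (chr (H := H)) := fun l l' h => by
  refine MonoidHom.ext fun m => Units.ext ?_
  exact congrFun (congrArg Subtype.val h) m

theorem charDegree_chr (l : Lin H) : Cfsg.charDegree (chr l).1 = 1 := by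
  simp [Cfsg.charDegree, chr]

theorem inertia_chr (l : Lin H) : H44.inertia (commutator H) (chr l).1 = stab l := by
  ext h
  rw [H44.mem_inertia, twist_chr, mem_stab]
  exact ⟨fun e => chr_injective (Subtype.ext e), fun e => by rw [e]⟩

variable (D : Data H) (hq : ¬ D.q ∣ Nat.card (commutator H))
include hq

theorem stab_le {l : Lin H} (hl : l ≠ 1) : stab l ≤ fixMod D.σ := by
  intro y hy
  by_contra hyJ
  apply hl
  refine MonoidHom.ext fun c => ?_
  obtain ⟨m, hm, hmc⟩ := exists_comm_eq D hq hyJ (commutator H) le_rfl c.2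
  have e : c = res (MulAut.conj y) ⟨m, hm⟩ * (⟨m, hm⟩ : commutator H)⁻¹ := Subtype.ext hmc.symm
  rw [e, map_mul, map_inv, ← pre_apply]
  show cj y l ⟨m, hm⟩ * _ = _
  rw [mem_stab.1 hy, mul_inv_cancel]
  rfl

theorem index_stab_ne_one {l : Lin H} (hl : l ≠ 1) : (stab l).index ≠ 1 := by
  intro h
  have := stab_le D hq hl (Subgroup.index_eq_one.1 h ▸ Subgroup.mem_top D.x)
  exact D.hx this

/-- A linear character extends to its stabiliser and induces irreducibly. -/
theorem exists_char_index {l : Lin H} (hl : l ≠ 1) :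
    ∃ χ : Cfsg.IrrCharacter H, NL χ ∧ Cfsg.charDegree χ.1 = (stab l).index := by
  classical
  haveI := Fintype.ofFinite H
  set M := commutator H
  set T := stab l with hT
  haveI := Fintype.ofFinite M
  haveI := Fintype.ofFinite T
  haveI := Fintype.ofFinite (M.subgroupOf T)
  have hdec : ∀ t : T, ∃ m : M, ((m : H)⁻¹ * t) ∈ A D := by
    intro t
    obtain ⟨m, hm, a, ha, e⟩ := exists_decomp D hq (t : H)
    exact ⟨⟨m, hm⟩, by rw [e, inv_mul_cancel_left]; exact ha⟩
  choose pr hpr using hdec
  have huniq : ∀ (t : T) (m : M), ((m : H)⁻¹ * t) ∈ A D → m = pr t := by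
    intro t m hm
    refine Subtype.ext (inv_mul_eq_one.1 (A_inf D hq
      (M.mul_mem (M.inv_mem m.2) (pr t).2) ?_))
    rw [show (m : H)⁻¹ * (pr t : H) = (m : H)⁻¹ * t * ((pr t : H)⁻¹ * t)⁻¹ by group]
    exact (A D).mul_mem hm ((A D).inv_mem (hpr t))
  let L : T →* ℂˣ := MonoidHom.mk' (fun t => l (pr t)) fun s t => by
    set a : H := (pr s : H)⁻¹ * s
    let m' : M := res (MulAut.conj a) (pr t)
    have hm' : pr (s * t) = pr s * m' := by
      refine (huniq (s * t) _ ?_).symm
      have e : ((pr s * m' : M) : H)⁻¹ * ((s * t : T) : H) = a * ((pr t : H)⁻¹ * t) := by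
        show ((pr s : H) * (a * (pr t : H) * a⁻¹))⁻¹ * ((s : H) * t) = _
        simp only [a]
        group
      rw [e]
      exact (A D).mul_mem (hpr s) (hpr t)
    have haT : a ∈ T := T.mul_mem (T.inv_mem (commutator_le_stab l (pr s).2)) s.2
    rw [hm', map_mul, show l m' = cj a l (pr t) from rfl, mem_stab.1 haT]
  have hLM : ∀ n : M.subgroupOf T, (L n : ℂ) = H56.resT M T (chr l).1 n := by
    intro n
    have : pr n = ⟨((n : T) : H), Subgroup.mem_subgroupOf.1 n.2⟩ := by
      refine (huniq _ _ ?_).symm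
      rw [inv_mul_cancel]; exact (A D).one_mem
    show (l (pr n) : ℂ) = _
    rw [this]
    rfl
  have hirr : Cfsg.IsIrrCharacter T fun t => (L t : ℂ) := H26.isIrrCharacter_hom L
  have hc : Cfsg.classInner (fun n : M.subgroupOf T => (L n : ℂ)) (H56.resT M T (chr l).1) ≠ 0 := by
    rw [funext hLM, H57.irr_inner_self (H56.isIrrCharacter_resT M T (chr l).2 (commutator_le_stab l))]
    exact one_ne_zero
  have hI : ∀ g : H, g ∈ T ↔ H56.twist M (chr l).1 g = (chr l).1 := fun g => by
    rw [hT, ← inertia_chr, H44.mem_inertia]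
  obtain ⟨h1, -⟩ := H56.clifford_induced M T (chr l).2 hI hirr hc
  have hd : Cfsg.charDegree (Cfsg.indFun T fun t => (L t : ℂ)) = T.index := by
    rw [Cfsg.charDegree, H25.indFun_one, map_one, Units.val_one, mul_one, Complex.natCast_re,
      Nat.floor_natCast]
  refine ⟨⟨_, h1⟩, ?_, hd⟩
  unfold NL
  rw [hd]
  exact index_stab_ne_one D hq hl

theorem not_dvd_index_stab {l : Lin H} (hl : l ≠ 1) : ¬ D.r ∣ (stab l).index := by
  obtain ⟨χ, hn, hd⟩ := exists_char_index D hq hl
  rw [← hd]
  exact D.ndvdr χ hn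

theorem stab_eq_of_le {l l' : Lin H} (hl : l ≠ 1) (hl' : l' ≠ 1) (h : stab l ≤ stab l') :
    stab l = stab l' := by
  obtain ⟨χ, hn, hd⟩ := exists_char_index D hq hl
  obtain ⟨χ', hn', hd'⟩ := exists_char_index D hq hl'
  have hi := D.nd χ' χ hn' hn (by rw [hd, hd']; exact Subgroup.index_dvd_of_le h)
  rw [hd, hd'] at hi
  refine le_antisymm h ?_
  have hri : (stab l).relIndex (stab l') = 1 := by
    have h2 := Subgroup.relIndex_mul_index h
    rw [hi] at h2
    exact (Nat.mul_eq_right Subgroup.index_ne_zero_of_finite).1 h2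
  exact Subgroup.relIndex_eq_one.1 hri

/-- All non-trivial linear characters have the same stabiliser. -/
theorem stab_eq {l l' : Lin H} (hl : l ≠ 1) (hl' : l' ≠ 1) : stab l = stab l' := by
  let Z : Lin H → Subgroup (Lin H) := fun v => Subgroup.closure (Set.range fun h => cj h v)
  have hmem : ∀ v, v ∈ Z v := fun v => Subgroup.subset_closure ⟨1, cj_one v⟩
  have hle : ∀ v, ∀ u ∈ Z v, stab v ≤ stab u := by
    intro v u hu y hy
    induction hu using Subgroup.closure_induction with
    | mem u hu =>
      obtain ⟨h, rfl⟩ := hu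
      rw [mem_stab, cj_comm, mem_stab.1 hy]
    | one => exact pre_hom_one _
    | mul a b _ _ ha hb => exact (pre_hom_mul _ a b).trans (congrArg₂ (· * ·) ha hb)
    | inv a _ ha => exact (pre_hom_inv _ a).trans (congrArg (·⁻¹) ha)
  by_cases hint : ∃ u ∈ Z l, u ∈ Z l' ∧ u ≠ 1
  · obtain ⟨u, hu, hu', hu1⟩ := hint
    rw [stab_eq_of_le D hq hl hu1 (hle l u hu), stab_eq_of_le D hq hl' hu1 (hle l' u hu')]
  push Not at hint
  have hZ : ∀ (v : Lin H) (h : H), ∀ u ∈ Z v, cj h u ∈ Z v := by
    intro v h u hu
    induction hu using Subgroup.closure_induction with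
    | mem u hu =>
      obtain ⟨k, rfl⟩ := hu
      exact Subgroup.subset_closure ⟨k * h, cj_mul k h v⟩
    | one => exact (pre_hom_one (MulAut.conj h)).symm ▸ (Z v).one_mem
    | mul a b _ _ ha hb =>
      rw [show cj h (a * b) = cj h a * cj h b from pre_hom_mul _ a b]
      exact (Z v).mul_mem ha hb
    | inv a _ ha =>
      rw [show cj h a⁻¹ = (cj h a)⁻¹ from pre_hom_inv _ a]
      exact (Z v).inv_mem ha
  have hp : l * l' ≠ 1 := fun h => hl' (hint l' (by
    rw [show l' = l⁻¹ from mul_left_cancel (h.trans (mul_inv_cancel l).symm)]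
    exact (Z l).inv_mem (hmem l)) (hmem l'))
  have hsub : stab (l * l') ≤ stab l ⊓ stab l' := by
    intro y hy
    have h1 : cj y l * cj y l' = l * l' := hy
    have h2 : cj y l * l⁻¹ = 1 := by
      refine hint _ ((Z l).mul_mem (hZ l y l (hmem l)) ((Z l).inv_mem (hmem l))) ?_
      have h5 : cj y l * l⁻¹ = l' * (cj y l')⁻¹ := by
        refine MonoidHom.ext fun m => ?_
        have h6 := DFunLike.congr_fun h1 m
        simp only [MonoidHom.mul_apply] at h6
        simp only [MonoidHom.mul_apply, MonoidHom.inv_apply]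
        rw [eq_mul_inv_iff_mul_eq, mul_right_comm, h6, mul_inv_cancel_comm]
      rw [h5]
      exact (Z l').mul_mem (hmem l') ((Z l').inv_mem (hZ l' y l' (hmem l')))
    have h3 : cj y l = l := mul_inv_eq_one.1 h2
    refine ⟨h3, ?_⟩
    rw [h3] at h1
    exact mul_left_cancel h1
  rw [← stab_eq_of_le D hq hp hl (hsub.trans inf_le_left),
    ← stab_eq_of_le D hq hp hl' (hsub.trans inf_le_right)]

end Cfsg.Agent.H69.NonDiv
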