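import Cfsg.Agent.H69.NonDiv.Dual

/-!
# Linear characters fixed by the automorphism
-/

set_option autoImplicit false
set_option linter.style.haveILetI false
set_option linter.unusedSectionVars false

open scoped commutatorElement

namespace Cfsg.Agent.H69.NonDiv

variable {H : Type*} [Group H] [Finite H]

/-- The abelianisation of the iterates of an automorphism. -/
theorem of_pow_apply (σ : MulAut H) {y : H} {t : Abelianization H}
    (h : Abelianization.of (σ y) = Abelianization.of y * t)
    (ht : ∀ z, Abelianization.of z = t → Abelianization.of (σ z) = t) (n : ℕ) :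
    Abelianization.of ((σ ^ n) y) = Abelianization.of y * t ^ n := by
  induction n with
  | zero => simp
  | succ n ih =>
    obtain ⟨z, hz⟩ : ∃ z, Abelianization.of z = t := QuotientGroup.mk_surjective t
    have e : (σ ^ (n + 1)) y = σ ((σ ^ n) y) := by rw [pow_succ']; rfl
    have h1 : Abelianization.of ((σ ^ n) y) = Abelianization.of (y * z ^ n) := by
      rw [ih, map_mul, map_pow, hz]
    have h2 : Abelianization.of (σ ((σ ^ n) y)) = Abelianization.of (σ (y * z ^ n)) := by
      have h3 := congrArg (Abelianization.map σ.toMonoidHom) h1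
      rwa [Abelianization.map_of, Abelianization.map_of] at h3
    rw [e, h2, map_mul σ, map_pow σ, map_mul, map_pow, h, ht z hz, mul_assoc, pow_succ']

variable (D : Data H) (hq : ¬ D.q ∣ Nat.card (commutator H))

theorem fixMod_invariant {y : H} (hy : y ∈ fixMod D.σ) : D.σ y ∈ fixMod D.σ := by
  rw [mem_fixMod] at hy ⊢
  have h := congrArg (Abelianization.map D.σ.toMonoidHom) hy
  rwa [Abelianization.map_of, Abelianization.map_of] at h

/-- An element moved only inside a part of `fixMod` has its `r ^ k`-th power in `fixMod`. -/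
theorem pow_mem_fixMod {y : H} (hy : D.σ y * y⁻¹ ∈ fixMod D.σ) :
    y ^ D.r ^ D.k ∈ fixMod D.σ := by
  set t := Abelianization.of (D.σ y * y⁻¹) with ht
  have h1 : Abelianization.of (D.σ y) = Abelianization.of y * t := by
    rw [ht, map_mul, map_inv, mul_comm, mul_assoc, inv_mul_cancel, mul_one]
  have hfix : ∀ z, Abelianization.of z = t → Abelianization.of (D.σ z) = t := by
    intro z hz
    have h2 : Abelianization.of (D.σ z) = Abelianization.of (D.σ (D.σ y * y⁻¹)) := by
      have h3 := congrArg (Abelianization.map D.σ.toMonoidHom) hz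
      rwa [ht, Abelianization.map_of, Abelianization.map_of] at h3
    rw [h2]
    exact hy
  have h2 := of_pow_apply D.σ h1 hfix (D.r ^ D.k)
  rw [D.hσk, MulAut.one_apply, left_eq_mul] at h2
  rw [mem_fixMod, map_pow D.σ, map_pow, map_pow, h1, mul_pow, h2, mul_one]

theorem pre_σ_cj (h : H) (l : Lin H) :
    pre D.σ (cj (D.σ h) l) = cj h (pre D.σ l) := by
  unfold cj
  rw [← pre_mul, ← pre_mul]
  refine congrArg (fun α => pre α l) (MulEquiv.ext fun z => ?_)
  simp [MulAut.mul_apply, MulAut.conj_apply]

include hq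

/-- A translate of a fixed character is fixed only for translations in `fixMod`. -/
theorem mem_fixMod_of_fixed {l : Lin H} (hl : l ≠ 1) (hF : pre D.σ l = l) {y : H}
    (hy : pre D.σ (cj y l) = cj y l) : y ∈ fixMod D.σ := by
  set y' := D.σ⁻¹ y with hy'
  have hσy' : D.σ y' = y := by
    rw [hy', ← MulAut.mul_apply, mul_inv_cancel, MulAut.one_apply]
  rw [← hσy', pre_σ_cj, hF, hσy'] at hy
  have hT : D.σ y' * y'⁻¹ ∈ stab l := by
    rw [hσy', mem_stab, cj_mul, ← hy, ← cj_mul, mul_inv_cancel, cj_one]
  have h1 := pow_mem_fixMod D (stab_le D hq hl hT)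
  haveI : (stab l).Normal := Subgroup.Normal.of_commutator_le _ (commutator_le_stab l)
  have h2 : y' ^ (stab l).index ∈ fixMod D.σ := stab_le D hq hl (Subgroup.pow_index_mem _ y')
  have hcop : Nat.Coprime (D.r ^ D.k) (stab l).index :=
    Nat.Coprime.pow_left _ ((Nat.Prime.coprime_iff_not_dvd D.hr).2 (not_dvd_index_stab D hq hl))
  rw [← hσy']
  refine fixMod_invariant D ?_
  obtain ⟨u, v, huv⟩ : ∃ u v : ℤ, u * ((D.r ^ D.k : ℕ) : ℤ) + v * ((stab l).index : ℤ) = 1 :=
    Int.isCoprime_iff_gcd_eq_one.mpr (by rw [Int.gcd_natCast_natCast]; exact hcop)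
  have e : y' = (y' ^ (D.r ^ D.k)) ^ u * (y' ^ (stab l).index) ^ v := by
    rw [← zpow_natCast, ← zpow_natCast y' (stab l).index, ← zpow_mul, ← zpow_mul, ← zpow_add,
      mul_comm _ u, mul_comm _ v, huv, zpow_one]
  rw [e]
  exact (fixMod D.σ).mul_mem ((fixMod D.σ).zpow_mem h1 u) ((fixMod D.σ).zpow_mem h2 v)

omit hq in
/-- The characters fixed by the automorphism. -/
def fixedLin : Subgroup (Lin H) where
  carrier := {l | pre D.σ l = l}
  one_mem' := pre_hom_one _
  mul_mem' := fun {a b} ha hb => by
    show pre D.σ (a * b) = a * b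
    rw [pre_hom_mul, show pre D.σ a = a from ha, show pre D.σ b = b from hb]
  inv_mem' := fun {a} ha => by
    show pre D.σ a⁻¹ = a⁻¹
    rw [pre_hom_inv, show pre D.σ a = a from ha]

omit hq in
theorem cj_mem_fixedLin {l : Lin H} (hF : l ∈ fixedLin D) {y : H}
    (hy : y ∈ fixMod D.σ) : cj y l ∈ fixedLin D := by
  show pre D.σ (cj y l) = cj y l
  set y' := D.σ⁻¹ y with hy'
  have hσy' : D.σ y' = y := by
    rw [hy', ← MulAut.mul_apply, mul_inv_cancel, MulAut.one_apply]
  conv_lhs => rw [← hσy', pre_σ_cj, show pre D.σ l = l from hF]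
  have h1 : Abelianization.of (D.σ y) = Abelianization.of y := hy
  have h2 : y * y'⁻¹ ∈ commutator H := by
    refine mem_of_of_eq_one ?_
    have hinj : Function.Injective (Abelianization.map D.σ.toMonoidHom) :=
      Finite.injective_iff_surjective.2 fun z => by
        obtain ⟨w, rfl⟩ := QuotientGroup.mk_surjective z
        exact ⟨Abelianization.of (D.σ⁻¹ w), by
          rw [Abelianization.map_of]
          show Abelianization.of (D.σ (D.σ⁻¹ w)) = _
          rw [← MulAut.mul_apply, mul_inv_cancel, MulAut.one_apply]; rfl⟩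
    apply hinj
    rw [Abelianization.map_of, map_one]
    show Abelianization.of (D.σ (y * y'⁻¹)) = 1
    rw [map_mul, map_inv, hσy', map_mul, map_inv, h1, mul_inv_cancel]
  conv_rhs => rw [show y = y * y'⁻¹ * y' by group, cj_mul, cj_commutator h2]

/-- Every orbit of non-trivial linear characters has a fixed point. -/
theorem exists_fixed_translate {l : Lin H} (hl : l ≠ 1) :
    ∃ h : H, pre D.σ (cj h l) = cj h l := by
  classical
  haveI := Fintype.ofFinite H
  haveI := Fintype.ofFinite (commutator H)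
  haveI := Fact.mk D.hr
  set M := commutator H
  -- the orbit is stable under `σ`
  obtain ⟨χ, hχ, hdvd⟩ := exists_over M (chr l)
  rw [inertia_chr, charDegree_chr, mul_one] at hdvd
  have hn : NL χ := fun h => index_stab_ne_one D hq hl (Nat.dvd_one.1 (h ▸ hdvd))
  have hres : H43.restrMult M χ (chr (pre D.σ l)) ≠ 0 := by
    suffices H43.restrMult M χ (chr (pre D.σ l)) = H43.restrMult M χ (chr l) by rwa [this]
    unfold H43.restrMult H43.mult
    congr 2
    let e : M ≃ M := Equiv.ofBijective (res D.σ) (Finite.injective_iff_bijective.1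
      fun a b h => Subtype.ext (D.σ.injective (congrArg Subtype.val h)))
    unfold Cfsg.classInner
    congr 1
    conv_rhs => rw [← e.sum_comp]
    refine Finset.sum_congr rfl fun m _ => ?_
    show χ.1 m * _ = χ.1 (D.σ m) * _
    rw [D.inv χ hn]
    rfl
  obtain ⟨g, hg⟩ := H43.exists_irrConj_of_restrMult_ne_zero M χ hχ hres
  have hg' : cj g l = pre D.σ l := by
    refine chr_injective (Subtype.ext (funext fun m => ?_))
    exact congrFun (congrArg Subtype.val hg) m
  let O := {μ : Lin H // ∃ h, μ = cj h l}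
  let f : O → O := fun μ => ⟨pre D.σ μ, by
    obtain ⟨h, hh⟩ := μ.2
    refine ⟨g * D.σ⁻¹ h, ?_⟩
    rw [hh, cj_mul, hg', ← pre_σ_cj, ← MulAut.mul_apply, mul_inv_cancel, MulAut.one_apply]⟩
  have hfi : Function.Injective f := fun a b h =>
    Subtype.ext (pre_injective D.σ (congrArg Subtype.val h))
  haveI : Finite O := Finite.of_surjective (fun h : H => (⟨cj h l, h, rfl⟩ : O))
    fun μ => by obtain ⟨h, hh⟩ := μ.2; exact ⟨h, Subtype.ext hh.symm⟩
  haveI := Fintype.ofFinite O
  let e : Equiv.Perm O := Equiv.ofBijective f (Finite.injective_iff_bijective.1 hfi)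
  have he : ∀ (n : ℕ) (μ : O), ((e ^ n) μ).1 = pre (D.σ ^ n) μ.1 := by
    intro n
    induction n with
    | zero => intro μ; rfl
    | succ n ih =>
      intro μ
      rw [pow_succ', Equiv.Perm.mul_apply, pow_succ, pre_mul, ← ih μ]
      rfl
  have hep : e ^ D.r ^ D.k = 1 := Equiv.ext fun μ => Subtype.ext (by
    rw [he, D.hσk]; rfl)
  have hcard : Fintype.card O = (stab l).index := by
    rw [← Nat.card_eq_fintype_card, Subgroup.index]
    refine (Nat.card_congr (Equiv.ofBijective
      (fun x : H ⧸ stab l => Quotient.liftOn' x (fun h => (⟨cj h l, h, rfl⟩ : O)) ?_) ⟨?_, ?_⟩)).symm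
    · intro a b hab
      rw [QuotientGroup.leftRel_apply, mem_stab] at hab
      refine Subtype.ext ?_
      show cj a l = cj b l
      conv_rhs => rw [show b = a * (a⁻¹ * b) by group, cj_mul, cj_comm, hab]
    · intro x y
      induction x using QuotientGroup.induction_on with
      | H a =>
      induction y using QuotientGroup.induction_on with
      | H b =>
      intro h
      have h1 : cj a l = cj b l := congrArg Subtype.val h
      rw [QuotientGroup.eq, mem_stab]
      apply cj_injective a
      rw [cj_comm, ← cj_mul, show a * (a⁻¹ * b) = b by group, h1]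
    · rintro ⟨_, h, rfl⟩
      exact ⟨(h : H), rfl⟩
  obtain ⟨μ, hμ⟩ := Equiv.Perm.exists_fixed_point_of_prime (p := D.r) (n := D.k)
    (by rw [hcard]; exact not_dvd_index_stab D hq hl) hep
  obtain ⟨h, hh⟩ := μ.2
  refine ⟨h, ?_⟩
  rw [← hh]
  exact congrArg Subtype.val hμ

theorem card_lin :
    Nat.card (Lin H) - 1 = (fixMod D.σ).index * (Nat.card (fixedLin D) - 1) := by
  classical
  set J := fixMod D.σ
  haveI : J.Normal := Subgroup.Normal.of_commutator_le _ (commutator_le_fixMod D.σ)
  haveI : Finite (Lin H) := Finite.of_injective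
    (fun l : Lin H => (chr l)) chr_injective
  let f : (H ⧸ J) × {l : fixedLin D // l ≠ 1} → {l : Lin H // l ≠ 1} := fun p =>
    ⟨cj p.1.out p.2.1.1, fun h => p.2.2 (Subtype.ext (cj_injective _ (h.trans (pre_hom_one _).symm)))⟩
  have hb : Function.Bijective f := by
    refine ⟨?_, ?_⟩
    · rintro ⟨u, a⟩ ⟨v, b⟩ h
      have h1 : cj u.out a.1.1 = cj v.out b.1.1 := congrArg Subtype.val h
      have ha1 : (a.1.1 : Lin H) ≠ 1 := fun e => a.2 (Subtype.ext e)
      have h2 : b.1.1 = cj (u.out * v.out⁻¹) a.1.1 := by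
        rw [cj_mul, h1, ← cj_mul, mul_inv_cancel, cj_one]
      have h3 : u.out * v.out⁻¹ ∈ J :=
        mem_fixMod_of_fixed D hq ha1 a.1.2 (by rw [← h2]; exact b.1.2)
      have huv : u = v := by
        rw [← QuotientGroup.out_eq' u, ← QuotientGroup.out_eq' v, QuotientGroup.eq]
        simpa [mul_assoc] using Subgroup.Normal.conj_mem inferInstance _ (J.inv_mem h3) u.out⁻¹
      subst huv
      exact Prod.ext rfl (Subtype.ext (Subtype.ext (cj_injective _ h1)))
    · rintro ⟨μ, hμ⟩
      obtain ⟨h, hh⟩ := exists_fixed_translate D hq hμ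
      set u : H ⧸ J := QuotientGroup.mk h⁻¹
      have hu : u.out * h ∈ J := by
        have h' := QuotientGroup.eq.1 (QuotientGroup.out_eq' u).symm
        rw [inv_inv] at h'
        simpa [mul_assoc] using Subgroup.Normal.conj_mem inferInstance _ h' h⁻¹
      set w := cj h μ
      have hw : cj (u.out * h)⁻¹ w ∈ fixedLin D :=
        cj_mem_fixedLin D hh (J.inv_mem hu)
      refine ⟨(u, ⟨⟨_, hw⟩, fun e => hμ ?_⟩), Subtype.ext ?_⟩
      · have e' : cj (u.out * h)⁻¹ (cj h μ) = 1 := congrArg Subtype.val e
        exact cj_injective h (cj_injective _ (e'.trans ((pre_hom_one _).symm.trans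
          (congrArg (pre _) (pre_hom_one _).symm))))
      · show cj u.out (cj (u.out * h)⁻¹ (cj h μ)) = μ
        rw [← cj_mul, ← cj_mul]
        conv_rhs => rw [← cj_one μ]
        congr 1
        group
  have hc := Nat.card_congr (Equiv.ofBijective f hb)
  rw [Nat.card_prod] at hc
  have hne : ∀ (X : Type _) [One X] [Finite X], Nat.card {l : X // l ≠ 1} = Nat.card X - 1 := by
    intro X _ _
    haveI := Fintype.ofFinite X
    simp [Fintype.card_subtype_compl]
  rw [hne, hne] at hc
  exact hc.symm

theorem card_fixed_sq : Nat.card (fixedLin D) ^ 2 ≤ Nat.card (Lin H) := by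
  haveI : Finite (Lin H) := Finite.of_injective (fun l : Lin H => (chr l)) chr_injective
  rw [sq, ← Nat.card_prod]
  refine Nat.card_le_card_of_injective (fun p => p.1.1 * cj D.x p.2.1) ?_
  rintro ⟨a, b⟩ ⟨a', b'⟩ h
  have h1 : cj D.x (b.1 / b'.1) = a'.1 / a.1 := by
    refine MonoidHom.ext fun m => ?_
    have h6 : a.1 m * cj D.x b.1 m = a'.1 m * cj D.x b'.1 m := DFunLike.congr_fun h m
    show cj D.x b.1 m / cj D.x b'.1 m = a'.1 m / a.1 m
    rw [div_eq_div_iff_mul_eq_mul, mul_comm]
    exact h6
  by_cases hb : b.1 / b'.1 = 1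
  · have hbb : b = b' := Subtype.ext (div_eq_one.1 hb)
    subst hbb
    exact Prod.ext (Subtype.ext (mul_right_cancel h)) rfl
  · refine absurd (mem_fixMod_of_fixed D hq hb ((fixedLin D).div_mem b.2 b'.2) ?_) D.hx
    rw [h1]
    exact (fixedLin D).div_mem a'.2 a.2

end Cfsg.Agent.H69.NonDiv
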