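import Cfsg.Agent.H69.NonDiv.Basic

/-!
# The abelian complement of the derived subgroup
-/

set_option autoImplicit false
set_option linter.style.haveILetI false
set_option linter.unusedSectionVars false

open scoped commutatorElement

namespace Cfsg.Agent.H69.NonDiv

variable {H : Type*} [Group H] [Finite H]

/-- The standing hypotheses. -/
structure Data (H : Type*) [Group H] [Finite H] where
  q : ℕ
  hq : q.Prime
  r : ℕ
  hr : r.Prime
  σ : MulAut H
  k : ℕ
  hσk : σ ^ r ^ k = 1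
  x : H
  hxq : ∃ n : ℕ, x ^ q ^ n = 1
  hx : x ∉ fixMod σ
  dvdq : ∀ χ : Cfsg.IrrCharacter H, NL χ → q ∣ Cfsg.charDegree χ.1
  ndvdr : ∀ χ : Cfsg.IrrCharacter H, NL χ → ¬ r ∣ Cfsg.charDegree χ.1
  inv : ∀ χ : Cfsg.IrrCharacter H, NL χ → ∀ h, χ.1 (σ h) = χ.1 h
  nd : ∀ χ χ' : Cfsg.IrrCharacter H, NL χ → NL χ' →
    Cfsg.charDegree χ.1 ∣ Cfsg.charDegree χ'.1 → Cfsg.charDegree χ.1 = Cfsg.charDegree χ'.1

variable (D : Data H)

/-- An element of the derived subgroup commuting with `x` is trivial when `q` does not divide its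
order. -/
theorem eq_one_of_commute_x (hq : ¬ D.q ∣ Nat.card (commutator H)) {c : H}
    (hc : c ∈ commutator H) (hcx : Commute D.x c) : c = 1 := by
  haveI := Fact.mk D.hq
  obtain ⟨g, hg⟩ := isConj_iff.1 (isConj_mul D.σ D.inv D.hx hc)
  obtain ⟨n, hn⟩ := D.hxq
  have h1 : (D.x * c) ^ D.q ^ n = 1 := by
    rw [← hg, conj_pow, hn, mul_one, mul_inv_cancel]
  rw [hcx.mul_pow, hn, one_mul] at h1
  have h2 : orderOf c ∣ D.q ^ n := orderOf_dvd_of_pow_eq_one h1
  have h3 : orderOf c ∣ Nat.card (commutator H) := by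
    have := orderOf_dvd_natCard (⟨c, hc⟩ : commutator H)
    rwa [Subgroup.orderOf_mk] at this
  obtain ⟨j, -, hj⟩ := (Nat.dvd_prime_pow D.hq).1 h2
  rw [hj] at h3
  cases j with
  | zero => rwa [pow_zero, orderOf_eq_one_iff] at hj
  | succ i => exact absurd ((dvd_pow_self _ i.succ_ne_zero).trans h3) hq

/-- The centraliser of `x`. -/
def A : Subgroup H := Subgroup.centralizer {D.x}

theorem exists_decomp (hq : ¬ D.q ∣ Nat.card (commutator H)) (h : H) :
    ∃ m ∈ commutator H, ∃ a ∈ A D, h = m * a := by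
  set M := commutator H
  have hMn : M.Normal := inferInstance
  let f : M → M := fun m => ⟨(m : H) * (D.x * (m : H)⁻¹ * D.x⁻¹),
    M.mul_mem m.2 (hMn.conj_mem _ (M.inv_mem m.2) _)⟩
  have hf : Function.Injective f := by
    intro u v huv
    have h1 : (u : H) * (D.x * (u : H)⁻¹ * D.x⁻¹) = (v : H) * (D.x * (v : H)⁻¹ * D.x⁻¹) :=
      congrArg Subtype.val huv
    have h2 : (v : H)⁻¹ * u = 1 := by
      refine eq_one_of_commute_x D hq (M.mul_mem (M.inv_mem v.2) u.2) ?_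
      show D.x * ((v : H)⁻¹ * u) = (v : H)⁻¹ * u * D.x
      calc D.x * ((v : H)⁻¹ * u) = (v : H)⁻¹ * ((v : H) * (D.x * (v : H)⁻¹ * D.x⁻¹)) * D.x * u := by
            group
        _ = (v : H)⁻¹ * u * D.x := by rw [← h1]; group
    exact Subtype.ext (inv_mul_eq_one.1 h2).symm
  obtain ⟨m, hm⟩ := Finite.surjective_of_injective hf ⟨⁅h, D.x⁆,
    Subgroup.commutator_mem_commutator (Subgroup.mem_top _) (Subgroup.mem_top _)⟩
  refine ⟨m, m.2, (m : H)⁻¹ * h, ?_, by group⟩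
  have h1 : (m : H) * (D.x * (m : H)⁻¹ * D.x⁻¹) = h * D.x * h⁻¹ * D.x⁻¹ :=
    (congrArg Subtype.val hm).trans (commutatorElement_def _ _)
  rw [A, Subgroup.mem_centralizer_singleton_iff]
  calc (m : H)⁻¹ * h * D.x = (m : H)⁻¹ * (h * D.x * h⁻¹ * D.x⁻¹) * D.x * h := by group
    _ = D.x * ((m : H)⁻¹ * h) := by rw [← h1]; group

theorem A_inf (hq : ¬ D.q ∣ Nat.card (commutator H)) {c : H} (hc : c ∈ commutator H)
    (ha : c ∈ A D) : c = 1 :=
  eq_one_of_commute_x D hq hc (Subgroup.mem_centralizer_singleton_iff.1 ha).symm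

theorem A_comm (hq : ¬ D.q ∣ Nat.card (commutator H)) {a b : H} (ha : a ∈ A D) (hb : b ∈ A D) :
    a * b = b * a := by
  rw [← commutatorElement_eq_one_iff_mul_comm]
  refine A_inf D hq (Subgroup.commutator_mem_commutator (Subgroup.mem_top _) (Subgroup.mem_top _)) ?_
  rw [commutatorElement_def]
  exact (A D).mul_mem ((A D).mul_mem ((A D).mul_mem ha hb) ((A D).inv_mem ha)) ((A D).inv_mem hb)

theorem A_ext (hq : ¬ D.q ∣ Nat.card (commutator H)) {a b : H} (ha : a ∈ A D) (hb : b ∈ A D)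
    (h : Abelianization.of a = Abelianization.of b) : a = b :=
  mul_inv_eq_one.1 (A_inf D hq (mem_of_of_eq_one (by rw [map_mul, map_inv, h, mul_inv_cancel]))
    ((A D).mul_mem ha ((A D).inv_mem hb)))

/-- Off `fixMod` the elements act fixed-point-freely on the derived subgroup. -/
theorem fpf (hq : ¬ D.q ∣ Nat.card (commutator H)) {y m : H} (hy : y ∉ fixMod D.σ)
    (hm : m ∈ commutator H) (hcom : y * m = m * y) : m = 1 := by
  set M := commutator H
  have hMn : M.Normal := inferInstance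
  obtain ⟨m₀, hm₀, a, ha, rfl⟩ := exists_decomp D hq y
  have haJ : a ∉ fixMod D.σ := fun h =>
    hy ((fixMod D.σ).mul_mem (commutator_le_fixMod D.σ hm₀) h)
  -- every element of the coset is a conjugate by an element of `M`
  let f : M → M := fun u => ⟨a⁻¹ * ((u : H) * a * (u : H)⁻¹), by
    rw [show a⁻¹ * ((u : H) * a * (u : H)⁻¹) = (a⁻¹ * u * a) * (u : H)⁻¹ by group]
    exact M.mul_mem (by simpa using hMn.conj_mem _ u.2 a⁻¹) (M.inv_mem u.2)⟩
  have hsurj : Function.Surjective f := by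
    intro c
    obtain ⟨g, hg⟩ := isConj_iff.1 (isConj_mul D.σ D.inv haJ c.2)
    obtain ⟨u, hu, b, hb, rfl⟩ := exists_decomp D hq g
    refine ⟨⟨u, hu⟩, Subtype.ext ?_⟩
    show a⁻¹ * (u * a * u⁻¹) = (c : H)
    have e : u * b * a * (u * b)⁻¹ = u * a * u⁻¹ := by
      rw [mul_inv_rev, mul_assoc u b a, A_comm D hq hb ha]; group
    rw [← e, hg, inv_mul_cancel_left]
  have hinj := Finite.injective_iff_surjective.2 hsurj
  -- move `m` to the centraliser of `a`
  obtain ⟨g, hg⟩ := isConj_iff.1 (isConj_mul D.σ D.inv haJ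
    (show a⁻¹ * m₀ * a ∈ M by simpa using hMn.conj_mem _ hm₀ a⁻¹))
  have e2 : a * (a⁻¹ * m₀ * a) = m₀ * a := by group
  rw [e2] at hg
  have hcm : g⁻¹ * m * g ∈ M := by simpa using hMn.conj_mem _ hm g⁻¹
  have h3 : (⟨g⁻¹ * m * g, hcm⟩ : M) = 1 := by
    refine hinj (Subtype.ext ?_)
    show a⁻¹ * (g⁻¹ * m * g * a * (g⁻¹ * m * g)⁻¹) = a⁻¹ * ((1 : H) * a * (1 : H)⁻¹)
    rw [show g⁻¹ * m * g * a * (g⁻¹ * m * g)⁻¹ = g⁻¹ * (m * (g * a * g⁻¹) * m⁻¹) * g by group,
      hg, ← hcom]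
    rw [show m₀ * a * m * m⁻¹ = g * a * g⁻¹ by rw [hg]; group]
    group
  have h4 : g⁻¹ * m * g = 1 := congrArg Subtype.val h3
  calc m = g * (g⁻¹ * m * g) * g⁻¹ := by group
    _ = 1 := by rw [h4]; group

/-- A fixed-point-free map `m ↦ [y, m]` reaches every element of an invariant subgroup. -/
theorem exists_comm_eq (hq : ¬ D.q ∣ Nat.card (commutator H)) {y : H} (hy : y ∉ fixMod D.σ)
    (X : Subgroup H) [X.Normal] (hX : X ≤ commutator H) {c : H} (hc : c ∈ X) :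
    ∃ m ∈ X, y * m * y⁻¹ * m⁻¹ = c := by
  let f : X → X := fun m => ⟨y * (m : H) * y⁻¹ * (m : H)⁻¹,
    X.mul_mem (Subgroup.Normal.conj_mem inferInstance _ m.2 y) (X.inv_mem m.2)⟩
  have hf : Function.Injective f := by
    intro u v huv
    have h1 : y * (u : H) * y⁻¹ * (u : H)⁻¹ = y * (v : H) * y⁻¹ * (v : H)⁻¹ :=
      congrArg Subtype.val huv
    refine Subtype.ext (inv_mul_eq_one.1 (fpf D hq hy
      ((commutator H).mul_mem ((commutator H).inv_mem (hX u.2)) (hX v.2)) ?_))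
    calc y * ((u : H)⁻¹ * v)
        = (u : H)⁻¹ * (y * (u : H) * y⁻¹ * (u : H)⁻¹)⁻¹ * (y * v * y⁻¹ * (v : H)⁻¹) * v * y := by
          group
      _ = (u : H)⁻¹ * v * y := by rw [h1]; group
  obtain ⟨m, hm⟩ := Finite.surjective_of_injective hf ⟨c, hc⟩
  exact ⟨m, m.2, congrArg Subtype.val hm⟩

end Cfsg.Agent.H69.NonDiv
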